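import Cfsg.Agent.Lib.Helper58.WrSyl.Defs
import Cfsg.Agent.Lib.Helper44.Orth

set_option autoImplicit false

/-! # Sylow 2-subgroups of `Ω(Q)`, `q` odd, through `O_2 wr Sym(n)`: shared vocabulary -/

namespace Cfsg.Agent.Lib.Helper58.OmSyl

open Cfsg.Agent.Lib.Helper58.WrSyl Cfsg.Agent.Lib.Helper44

/-- the Sylow 2-subgroups of the commutator subgroup have elementary abelianization -/
def SylCommPC (G : Type*) [Group G] : Prop :=
  ∀ P : Sylow 2 (commutator G), PowComm 2 (P : Subgroup (commutator G))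

/-- "generalized dihedral": all elements outside a subgroup of index 2 are involutions -/
def GenDih (D : Type*) [Group D] : Prop :=
  ∃ A : Subgroup D, A.index = 2 ∧ ∀ s : D, s ∉ A → s ^ 2 = 1

/-- coordinates of the model space: `n` planes and `r` lines -/
abbrev Idx (n r : ℕ) := (Fin n × Fin 2) ⊕ Fin r

/-- the plane `x² + y²` -/
noncomputable def QU (F : Type*) [Field F] : QuadraticForm F (Fin 2 → F) :=
  QuadraticMap.weightedSumSquares F (fun _ => (1 : F))

/-- the model form `Σ_{i<n} (x_i² + y_i²) + Σ_{k<r} a_k z_k²` -/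
noncomputable def QM {F : Type*} [Field F] (n : ℕ) {r : ℕ} (a : Fin r → F) :
    QuadraticForm F (Idx n r → F) :=
  QuadraticMap.weightedSumSquares F (Sum.elim (fun _ => (1 : F)) a)

theorem QU_apply {F : Type*} [Field F] (v : Fin 2 → F) : QU F v = v 0 * v 0 + v 1 * v 1 := by
  simp [QU, QuadraticMap.weightedSumSquares_apply, Fin.sum_univ_two]

theorem QM_apply {F : Type*} [Field F] (n : ℕ) {r : ℕ} (a : Fin r → F) (x : Idx n r → F) :
    QM n a x = (∑ i : Fin n, ∑ t : Fin 2, x (Sum.inl (i, t)) * x (Sum.inl (i, t)))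
      + ∑ k : Fin r, a k * (x (Sum.inr k) * x (Sum.inr k)) := by
  simp [QM, QuadraticMap.weightedSumSquares_apply, Fintype.sum_sum_type, Fintype.sum_prod_type]

/-- `Φ` is the natural action of `O(U) wr Sym(n) × {±1}^r` on the model space -/
def IsStd {F : Type*} [Field F] {n r : ℕ} {a : Fin r → F}
    (Φ : Wr (OQ (QU F)) n × (Fin r → ℤˣ) →* OQ (QM n a)) : Prop :=
  ∀ (w : Wr (OQ (QU F)) n) (ε : Fin r → ℤˣ) (x : Idx n r → F),
    (∀ (i : Fin n) (t : Fin 2),
      ((Φ (w, ε) : OQ (QM n a)) : (Idx n r → F) ≃ₗ[F] (Idx n r → F)) x (Sum.inl (i, t)) =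
        ((w.left i : OQ (QU F)) : (Fin 2 → F) ≃ₗ[F] (Fin 2 → F))
          (fun s => x (Sum.inl (w.right.symm i, s))) t) ∧
    (∀ k : Fin r,
      ((Φ (w, ε) : OQ (QM n a)) : (Idx n r → F) ≃ₗ[F] (Idx n r → F)) x (Sum.inr k) =
        (((ε k : ℤˣ) : ℤ) : F) * x (Sum.inr k))

instance instFiniteOQ {F V : Type*} [Field F] [AddCommGroup V] [Module F V] [Finite V]
    (Q : QuadraticForm F V) : Finite (OQ Q) :=
  Finite.of_injective (fun g : OQ Q => ((g : V ≃ₗ[F] V) : V → V)) (by
    intro g h e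
    exact Subtype.ext (LinearEquiv.ext (fun v => congrFun e v)))

end Cfsg.Agent.Lib.Helper58.OmSyl
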