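import Cfsg.Agent.Lib.Helper58.OmSyl.Defs
import Cfsg.Agent.Lib.Helper37.OmSyl.A
import Cfsg.Agent.Lib.Helper54.OmSyl.U1
import Cfsg.Agent.Lib.Helper54.OmSyl.U2
import Cfsg.Agent.Lib.Helper75.OmSyl.G3
import Cfsg.Agent.Lib.Helper75.OmSyl.G3a
import Cfsg.Agent.Lib.Helper75.OmSyl.G4
import Cfsg.Agent.Lib.Helper81.OmSyl.E1
import Cfsg.Agent.Lib.Helper81.OmSyl.E2
import Cfsg.Agent.Lib.Helper81.OmSyl.E3
import Cfsg.Agent.Lib.Helper81.OmSyl.E4
import Cfsg.Agent.Lib.Helper81.OmSyl.G1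
import Cfsg.Agent.Lib.Helper81.OmSyl.G2
import Cfsg.Agent.Lib.Helper91.OmSyl.D1
import Cfsg.Agent.Lib.Helper91.OmSyl.D2
import Cfsg.Agent.Lib.Helper91.OmSyl.D3
import Cfsg.Agent.Lib.Helper91.OmSyl.DH1
import Cfsg.Agent.Lib.Helper91.OmSyl.DH2
import Cfsg.Agent.Lib.Helper91.OmSyl.G5
import Cfsg.Agent.Lib.Helper12.WrSyl.T2
import Cfsg.Agent.Lib.Helper23.WrSyl.VBase
import Cfsg.Agent.Lib.Helper44.Transport
import Cfsg.Agent.S4623

set_option autoImplicit false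

namespace Cfsg.Agent.Lib.Helper58.OmSyl

open Cfsg Cfsg.Agent.Lib.Helper58.WrSyl Cfsg.Agent.Lib.Helper44 Cfsg.Agent.Lib.Helper14
open QuadraticMap Module
open Cfsg.Agent.Lib.Helper37.OmSyl Cfsg.Agent.Lib.Helper54.OmSyl Cfsg.Agent.Lib.Helper75.OmSyl
  Cfsg.Agent.Lib.Helper81.OmSyl Cfsg.Agent.Lib.Helper91.OmSyl

theorem val_Y (S : Type*) [Group S] [Finite S] (n r : ℕ) :
    (Nat.card (Wr S n × (Fin r → ℤˣ))).factorization 2 =
      n * (Nat.card S).factorization 2 + (n.factorial).factorization 2 + r := by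
  have h1 : Nat.card (Fin r → ℤˣ) = 2 ^ r := by
    rw [Nat.card_fun]; simp [Nat.card_eq_fintype_card]
  rw [Nat.card_prod, Nat.factorization_mul Nat.card_pos.ne' Nat.card_pos.ne',
    Finsupp.add_apply, Cfsg.Agent.Lib.Helper23.WrSyl.val_wr,
    ← Cfsg.Agent.Lib.Helper23.WrSyl.val_factorial, h1, Nat.factorization_pow]
  simp [Nat.Prime.factorization_self Nat.prime_two]

theorem QM_disc {F : Type*} [Field F] (n : ℕ) {r : ℕ} (a : Fin r → F) :
    HasDisc (polarBilin (QM n a)) ((2 ^ n) ^ 2 * ∏ k, 2 * a k) := by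
  have h := hasDisc_wss (Sum.elim (fun _ : Fin n × Fin 2 => (1 : F)) a)
  rw [Fintype.prod_sum_type] at h
  have e : (∏ x : Fin n × Fin 2, 2 * Sum.elim (fun _ : Fin n × Fin 2 => (1 : F)) a (Sum.inl x))
      = (2 ^ n) ^ 2 := by
    simp [Finset.prod_const, Finset.card_univ, ← pow_mul]
  rw [e] at h
  exact h

theorem QM_nondeg {F : Type*} [Field F] (h2 : (2 : F) ≠ 0) (n : ℕ) {r : ℕ} (a : Fin r → F)
    (ha : ∀ k, a k ≠ 0) : (polarBilin (QM n a)).Nondegenerate :=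
  (QM_disc n a).nondegenerate (mul_ne_zero (pow_ne_zero _ (pow_ne_zero _ h2))
    (Finset.prod_ne_zero_iff.2 fun k _ => mul_ne_zero h2 (ha k)))

theorem isPGroup_signs (r : ℕ) : IsPGroup 2 (Fin r → ℤˣ) := by
  intro ε
  refine ⟨1, ?_⟩
  funext k
  simp only [pow_one, Pi.pow_apply, Pi.one_apply]
  rcases Int.units_eq_one_or (ε k) with h | h <;> simp [h]

theorem comm_le_comap {Y G : Type*} [Group Y] [Group G] (Φ : Y →* G) :
    commutator Y ≤ (commutator G).comap Φ := by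
  rw [← Subgroup.map_le_iff_le_comap, commutator_def, commutator_def, Subgroup.map_commutator]
  exact Subgroup.commutator_mono le_top le_top

/-- the model theorem, `n ≥ 3` -/
theorem sylCommPC_model {F : Type*} [Field F] [Fintype F] (h2 : (2 : F) ≠ 0) (n : ℕ) (hn : 3 ≤ n)
    {r : ℕ} (a : Fin r → F) (ha : ∀ k, a k ≠ 0)
    (hval : (Nat.card (OQ (QM n a))).factorization 2 =
      n * (Fintype.card F ^ 2 - 1).factorization 2 + (n.factorial).factorization 2 + r) :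
    SylCommPC (OQ (QM n a)) := by
  intro P
  obtain ⟨Φ, hΦ⟩ := exists_std n a
  have : Fact (Nat.Prime 2) := ⟨Nat.prime_two⟩
  obtain ⟨Q⟩ : Nonempty (Sylow 2 (OQ (QU F))) := inferInstance
  obtain ⟨R⟩ : Nonempty (Sylow 2 (Equiv.Perm (Fin n))) := inferInstance
  obtain ⟨T, hT⟩ := exists_std_sylow_prod 2 n (isPGroup_signs r) Q R
  obtain ⟨e⟩ := sylow_inf_equiv 2 Φ (IsStd.injective h2 hΦ)
    (by rw [hval, val_Y, val_OQU h2]) (commutator (OQ (QM n a))) P T
  refine Cfsg.Agent.Lib.Helper12.WrSyl.PowComm.of_equiv e.symm ?_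
  refine powComm_core 2 n hn (Q : Subgroup _) (R : Subgroup _) (powComm_of_genDih (genDih_OQU h2) Q)
    (fun x => (Cfsg.Agent.S4623.result 2 n R default).1 x) ?_ _ (comm_le_comap Φ) ?_ _ hT
  · intro ε
    funext k
    simp only [Pi.pow_apply, Pi.one_apply]
    rcases Int.units_eq_one_or (ε k) with h | h <;> simp [h]
  · intro σ
    exact IsStd.perm_mem h2 ha hΦ σ

/-- the model theorem, `n = 2`, `r = 0` -/
theorem sylCommPC_model_two {F : Type*} [Field F] [Fintype F] (h2 : (2 : F) ≠ 0)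
    (a : Fin 0 → F)
    (hval : (Nat.card (OQ (QM 2 a))).factorization 2 =
      2 * (Fintype.card F ^ 2 - 1).factorization 2 + (Nat.factorial 2).factorization 2 + 0) :
    SylCommPC (OQ (QM 2 a)) := by
  intro P
  have ha : ∀ k, a k ≠ 0 := fun k => k.elim0
  obtain ⟨Φ, hΦ⟩ := exists_std 2 a
  have : Fact (Nat.Prime 2) := ⟨Nat.prime_two⟩
  obtain ⟨Q⟩ : Nonempty (Sylow 2 (OQ (QU F))) := inferInstance
  obtain ⟨R⟩ : Nonempty (Sylow 2 (Equiv.Perm (Fin 2))) := inferInstance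
  have hR : ∀ σ : Equiv.Perm (Fin 2), σ ∈ R := by
    have h1 : Nat.card (R : Subgroup (Equiv.Perm (Fin 2))) = 2 := by
      rw [Sylow.card_eq_multiplicity, Nat.card_perm]
      simp [Nat.Prime.factorization_self Nat.prime_two]
    have h3 : (R : Subgroup (Equiv.Perm (Fin 2))) = ⊤ := by
      apply Subgroup.eq_top_of_card_eq
      rw [h1, Nat.card_perm]
      simp
    intro σ
    have : σ ∈ (R : Subgroup (Equiv.Perm (Fin 2))) := by rw [h3]; trivial
    exact this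
  obtain ⟨T, hT⟩ := exists_std_sylow_prod 2 2 (isPGroup_signs 0) Q R
  obtain ⟨e⟩ := sylow_inf_equiv 2 Φ (IsStd.injective h2 hΦ)
    (by rw [hval, val_Y, val_OQU h2]) (commutator (OQ (QM 2 a))) P T
  refine Cfsg.Agent.Lib.Helper12.WrSyl.PowComm.of_equiv e.symm ?_
  refine powComm_core_two (Q : Subgroup _) (powComm_of_genDih (genDih_OQU h2) Q) _
    (comm_le_comap Φ) ?_ ?_ ?_ _ ?_
  · intro y
    rw [Subgroup.mem_comap, map_pow]
    exact sq_mem_commutator_OQ h2 (QM_nondeg h2 2 a ha) _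
  · intro σ
    exact IsStd.perm_mem h2 ha hΦ σ
  · intro x hx hmem
    exact mem_comm_sylow_of_genDih (genDih_OQU h2) Q x hx (IsStd.single_mem h2 ha hΦ 0 x hmem)
  · intro x
    exact ⟨fun h => ((hT x).1 h).1, fun h => (hT x).2 ⟨h, hR _⟩⟩

/-- the general theorem for a form on `ι → F` -/
theorem sylCommPC_of_form {F : Type*} [Field F] [Fintype F] (h2 : (2 : F) ≠ 0)
    {ι : Type} [Fintype ι] [DecidableEq ι] (Q : QuadraticForm F (ι → F))
    (hQ : (polarBilin Q).Nondegenerate) (δ : F) (hδ : HasDisc (polarBilin Q) δ)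
    (n r : ℕ) (hcard : Fintype.card ι = 2 * n + r) (a : Fin r → F) (ha : ∀ k, a k ≠ 0)
    (hsq : IsSquare (δ * ∏ k, 2 * a k)) (hn : 3 ≤ n ∨ (n = 2 ∧ r = 0))
    (hval : (Nat.card (Cfsg.isometryGroup F ⇑Q)).factorization 2 =
      n * (Fintype.card F ^ 2 - 1).factorization 2 + (n.factorial).factorization 2 + r) :
    SylCommPC (Cfsg.isometryGroup F ⇑Q) := by
  have hsq' : IsSquare (δ * ((2 ^ n) ^ 2 * ∏ k, 2 * a k)) := by
    obtain ⟨t, ht⟩ := hsq
    refine ⟨2 ^ n * t, ?_⟩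
    calc δ * ((2 ^ n) ^ 2 * ∏ k, 2 * a k) = (2 ^ n) ^ 2 * (δ * ∏ k, 2 * a k) := by ring
      _ = _ := by rw [ht]; ring
  obtain ⟨e⟩ := oq_equiv_of_disc h2 Q (QM n a) hQ (QM_nondeg h2 n a ha)
    (by simp [hcard]; ring) δ _ hδ (QM_disc n a) hsq'
  have hval' : (Nat.card (OQ (QM n a))).factorization 2 =
      n * (Fintype.card F ^ 2 - 1).factorization 2 + (n.factorial).factorization 2 + r := by
    rw [← hval, Nat.card_congr ((isoEquiv Q).trans e).toEquiv]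
  refine SylCommPC.of_equiv ((isoEquiv Q).trans e).symm ?_
  rcases hn with hn | ⟨rfl, rfl⟩
  · exact sylCommPC_model h2 n hn a ha hval'
  · exact sylCommPC_model_two h2 a hval'

end Cfsg.Agent.Lib.Helper58.OmSyl
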