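import Cfsg.Agent.Lib.Helper58.OmSyl.Model
import Cfsg.Agent.Lib.Helper37.OmegaRank.Main
import Cfsg.Agent.Lib.Helper14.StdMinus
import Cfsg.Agent.Lib.Helper44.StdForms
import Cfsg.Agent.S0286
import Cfsg.Agent.S0287
import Cfsg.Agent.S0288

set_option autoImplicit false

namespace Cfsg.Agent.Lib.Helper58.OmSyl

open Cfsg Cfsg.Agent.Lib.Helper58.WrSyl Cfsg.Agent.Lib.Helper44 Cfsg.Agent.Lib.Helper14
open QuadraticMap Module
open Cfsg.Agent.Lib.Helper37.OmSyl Cfsg.Agent.Lib.Helper54.OmSyl Cfsg.Agent.Lib.Helper75.OmSyl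
  Cfsg.Agent.Lib.Helper81.OmSyl Cfsg.Agent.Lib.Helper91.OmSyl

theorem one_lt_card_field (F : Type*) [Field F] [Fintype F] : 1 < Fintype.card F :=
  Fintype.one_lt_card

theorem pow_mod_four_cases {q : ℕ} (hq : Odd q) (m : ℕ) : q ^ m % 4 = 1 ∨ q ^ m % 4 = 3 := by
  have : Odd (q ^ m) := hq.pow
  obtain ⟨k, hk⟩ := this
  omega

theorem even_pow_mod_four {q : ℕ} (hq : Odd q) {m : ℕ} (hm : Even m) : q ^ m % 4 = 1 := by
  obtain ⟨k, rfl⟩ := hm
  rw [← two_mul, pow_mul, Nat.pow_mod]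
  have : q ^ 2 % 4 = 1 := by
    obtain ⟨j, rfl⟩ := hq
    rw [Nat.pow_mod]
    have h4 : (2 * j + 1) % 4 = 1 ∨ (2 * j + 1) % 4 = 3 := by omega
    rcases h4 with h | h <;> rw [h]
  rw [this]; simp

theorem rowOdd_aux {F : Type*} [Field F] [Fintype F] (hF : Odd (Fintype.card F)) (m : ℕ)
    (hm : 3 ≤ m) (Qf : (Unit ⊕ (Fin m ⊕ Fin m) → F) → F) (hQf : Qf = ⇑(oddQF m F))
    (hc : Nat.card (Cfsg.isometryGroup F Qf) = 2 * Fintype.card F ^ (m ^ 2) *
      ∏ i ∈ Finset.range m, (Fintype.card F ^ (2 * (i + 1)) - 1)) :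
    SylCommPC (Cfsg.isometryGroup F Qf) := by
  subst hQf
  have h2 := Cfsg.Agent.Lib.Helper37.OmegaRank.two_ne_zero_of_odd_card hF
  obtain ⟨δ, hδ⟩ := exists_hasDisc (polarBilin (oddQF m F))
  have hδ0 : δ ≠ 0 := hδ.ne_zero (oddQF_nondeg m F h2)
  refine sylCommPC_of_form h2 (oddQF m F) (oddQF_nondeg m F h2) δ hδ m 1 (by simp; ring)
    (fun _ => δ / 2) (fun _ => div_ne_zero hδ0 h2) ⟨δ, ?_⟩ (Or.inl hm) ?_
  · simp only [Finset.univ_unique, Finset.prod_singleton]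
    field_simp
  · rw [hc, val_odd hF (one_lt_card_field F) m]

theorem rowPlus_aux {F : Type*} [Field F] [Fintype F] (hF : Odd (Fintype.card F)) (m : ℕ)
    (hm : 1 ≤ m) (hm' : Even m ∨ 4 ≤ m) (Qf : (Fin m ⊕ Fin m → F) → F) (hQf : Qf = ⇑(plusQ m F))
    (hc : Nat.card (Cfsg.isometryGroup F Qf) = 2 * Fintype.card F ^ (m * (m - 1)) *
      (Fintype.card F ^ m - 1) * ∏ i ∈ Finset.range (m - 1), (Fintype.card F ^ (2 * (i + 1)) - 1)) :
    SylCommPC (Cfsg.isometryGroup F Qf) := by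
  subst hQf
  have h2 := Cfsg.Agent.Lib.Helper37.OmegaRank.two_ne_zero_of_odd_card hF
  obtain ⟨δ, hδ⟩ := exists_hasDisc (polarBilin (plusQ m F))
  have hδ0 : δ ≠ 0 := hδ.ne_zero (plusQ_nondegenerate m F)
  have hsq : IsSquare δ ↔ Fintype.card F ^ m % 4 = 1 := by
    rw [plus_disc_isSquare_iff F h2 m δ hδ,
      Cfsg.Agent.Lib.Helper37.OmegaRank.isSquare_neg_one_pow_iff rfl hF]
  rcases pow_mod_four_cases hF m with h | h
  · refine sylCommPC_of_form h2 (plusQ m F) (plusQ_nondegenerate m F) δ hδ m 0 (by simp; ring)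
      (fun k => k.elim0) (fun k => k.elim0) (by simpa using hsq.2 h) ?_ ?_
    · rcases hm' with he | h4
      · obtain ⟨k, rfl⟩ := he
        omega
      · omega
    · rw [hc, val_plus_one hF (one_lt_card_field F) m hm h]
  · have h4 : 4 ≤ m := by
      rcases hm' with he | h4
      · rw [even_pow_mod_four hF he] at h; omega
      · exact h4
    refine sylCommPC_of_form h2 (plusQ m F) (plusQ_nondegenerate m F) δ hδ (m - 1) 2
      (by simp; omega) ![1 / 2, δ / 2] ?_ ⟨δ, ?_⟩ (Or.inl (by omega)) ?_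
    · intro k
      fin_cases k
      · simpa using h2
      · simpa using ⟨hδ0, h2⟩
    · simp only [Fin.prod_univ_two, Matrix.cons_val_zero, Matrix.cons_val_one]
      field_simp
    · rw [hc, val_plus_three hF (one_lt_card_field F) m hm h]

theorem rowMinus_aux {F : Type*} [Field F] [Fintype F] (hF : Odd (Fintype.card F)) (k : ℕ)
    (hk : 4 ≤ k + 1) (a b : F)
    (hab : ∀ z₁ z₂ : F, z₁ ^ 2 + a * z₁ * z₂ + b * z₂ ^ 2 = 0 → z₁ = 0 ∧ z₂ = 0)
    (Qf : ((Fin k ⊕ Fin k) ⊕ Fin 2 → F) → F) (hQf : Qf = ⇑(minusQF k F a b))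
    (hc : Nat.card (Cfsg.isometryGroup F Qf) = 2 * Fintype.card F ^ ((k + 1) * (k + 1 - 1)) *
      (Fintype.card F ^ (k + 1) + 1) *
        ∏ i ∈ Finset.range (k + 1 - 1), (Fintype.card F ^ (2 * (i + 1)) - 1)) :
    SylCommPC (Cfsg.isometryGroup F Qf) := by
  subst hQf
  have h2 := Cfsg.Agent.Lib.Helper37.OmegaRank.two_ne_zero_of_odd_card hF
  obtain ⟨δ, hδ⟩ := exists_hasDisc (polarBilin (minusQF k F a b))
  have hδ0 : δ ≠ 0 := hδ.ne_zero (minusQF_nondeg k F hab)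
  have hsq : IsSquare δ ↔ ¬ (Fintype.card F ^ (k + 1) % 4 = 1) := by
    rw [minus_disc_isSquare_iff k F h2 hab δ hδ,
      Cfsg.Agent.Lib.Helper37.OmegaRank.isSquare_neg_one_pow_iff rfl hF]
  rcases pow_mod_four_cases hF (k + 1) with h | h
  · refine sylCommPC_of_form h2 (minusQF k F a b) (minusQF_nondeg k F hab) δ hδ (k + 1 - 1) 2
      (by simp; omega) ![1 / 2, δ / 2] ?_ ⟨δ, ?_⟩ (Or.inl (by omega)) ?_
    · intro j
      fin_cases j
      · simpa using h2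
      · simpa using ⟨hδ0, h2⟩
    · simp only [Fin.prod_univ_two, Matrix.cons_val_zero, Matrix.cons_val_one]
      field_simp
    · rw [hc, val_minus_one hF (one_lt_card_field F) (k + 1) (by omega) h]
  · refine sylCommPC_of_form h2 (minusQF k F a b) (minusQF_nondeg k F hab) δ hδ (k + 1) 0
      (by simp; omega) (fun j => j.elim0) (fun j => j.elim0)
      (by simpa using hsq.2 (by rw [h]; norm_num)) (Or.inl (by omega)) ?_
    · rw [hc, val_minus_three hF (one_lt_card_field F) (k + 1) (by omega) h]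

end Cfsg.Agent.Lib.Helper58.OmSyl
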